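import Mathlib
import Cfsg.Agent.Lib.Helper56.TCPerm

set_option autoImplicit false

/-!
A cheaper check that the `p`-th power of a word fixes every final name, through a stored table of
the action of the word.
-/

namespace Cfsg.Agent.Lib.Helper56.TC

open Tabs

/-- The table `τ` gives the action of `w` at `v`, and its `p`-th iterate fixes `v`. -/
noncomputable def chkPowT (T : Tabs) (τ : ℕ → ℕ) (w : List ℕ) (p : ℕ) (v : ℕ) : Bool :=
  Nat.beq (τ v) (T.followT w v) && Nat.beq (iterF τ p v) v

theorem chkPow_of_T {T : Tabs} (hP : T.P1) (τ : ℕ → ℕ) (w : List ℕ) (hw : ∀ a ∈ w, a < T.K)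
    (p : ℕ) (h : ∀ v < T.N, chkPowT T τ w p v = true) : ∀ v < T.N, chkPow T w p v = true := by
  have hτ : ∀ v < T.N, τ v = T.followT w v := by
    intro v hv
    have h1 := h v hv
    unfold chkPowT at h1
    simp only [Bool.and_eq_true] at h1
    exact beq_true h1.1
  intro v hv
  have h1 := h v hv
  unfold chkPowT at h1
  simp only [Bool.and_eq_true] at h1
  have h2 := iterF_congr τ (T.followT w) T.N hτ (fun v hv => hP.followT_lt w hw v hv) p v hv
  unfold chkPow
  rw [← h2.1]
  exact h1.2

end Cfsg.Agent.Lib.Helper56.TC
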